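import Groth.Agent.Sga4h.H920.QiClosed
import Groth.Agent.EtpbcB.HpullTors
import Groth.Agent.EtpbcB.StrictLocStar
import Groth.Agent.EtpbcB.GeomPt
import Groth.Agent.Etrest.SHPoint
import Mathlib.AlgebraicGeometry.ResidueField
import Mathlib.FieldTheory.IsSepClosed

/-!
# Sections of a complex punctual on the closed fibre

`f : X ⟶ Spec A` proper, `A` strictly henselian, `K` a bounded below complex of sheaves killed by `n` without higher
cohomology, with acyclic stalks at the geometric points of the closed fibre not over `x₀`. Then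
`Γ(X, K) ⟶ Γ(Spec O^sh_{x₀}, K)` is a quasi-isomorphism.
-/

set_option autoImplicit false
set_option maxHeartbeats 400000
universe u

open CategoryTheory CategoryTheory.Limits AlgebraicGeometry Opposite IsLocalRing

namespace Groth.Agent.Sga4h.H920.ClaimA

open EtCoh Groth.Agent.EtpbcB Groth.Agent.EtpbcB.BCCalc Groth.Agent.EtpbcB.BCIso
  ZExt OnePtAbs KapConst SecNat QiComp QiClosed Groth.Agent.Cohder.RDAcyc Groth.Agent.Etalg.LACoreB

variable {X Y Z : Scheme.{u}}

theorem isIso_psN (f : X ⟶ Y) (M : Ab Y) (h : BijAt ((pullPushAdj f).unit.app M) (top Y)) :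
    IsIso ((psN f).app M) := by
  rw [psN_eq]
  have h1 : IsIso ((G Y).map ((pullPushAdj f).unit.app M)) :=
    (ConcreteCategory.isIso_iff_bijective _).2 ((bijAt_top_iff _).1 h)
  infer_instance

theorem qi_of_UB (f : X ⟶ Y) (h : UB f) (K : CochainComplex (Ab Y) ℤ) : Qi f K :=
  qi_of_isIso f K fun m => isIso_psN f _ (h _)

/-- acyclic complexes with acyclic terms -/
theorem acyclic_G (K : CochainComplex (Ab X) ℤ) (a : ℤ) [K.IsStrictlyGE a] (hK : K.Acyclic)
    (hKa : ∀ m (q : ℕ), 0 < q → Subsingleton (EtCoh.H X (K.X m) q)) :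
    (((G X).mapHomologicalComplex (ComplexShape.up ℤ)).obj K).Acyclic := by
  have h0 : QuasiIso (0 : K ⟶ K) := quasiIso_of_acyclic _ hK hK
  have h1 := Cohder.RDPlusAcyc.quasiIso_map (G X) (0 : K ⟶ K) a a (fun m => isAcyc_G _ (hKa m))
    (fun m => isAcyc_G _ (hKa m))
  intro m
  rw [HomologicalComplex.exactAt_iff_isZero_homology, IsZero.iff_id_eq_zero]
  have h2 := h1.quasiIsoAt m
  rw [quasiIsoAt_iff_isIso_homologyMap, Functor.map_zero, HomologicalComplex.homologyMap_zero] at h2
  have h3 : (0 : (((G X).mapHomologicalComplex (ComplexShape.up ℤ)).obj K).homology m ⟶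
    (((G X).mapHomologicalComplex (ComplexShape.up ℤ)).obj K).homology m) ≫ inv 0 = 𝟙 _ :=
      IsIso.hom_inv_id _
  rw [zero_comp] at h3
  exact h3.symm

theorem isSepClosed_residueField {R : Type u} [CommRing R] [IsLocalRing R]
    [IsSepClosed (ResidueField R)] {X : Scheme.{u}} (f : X ⟶ Spec (CommRingCat.of R))
    [LocallyOfFiniteType f] (x : X) (hx : IsClosed ({x} : Set X)) (hfx : f x = closedPoint R) :
    IsSepClosed (X.residueField x) := by
  have h1 : IsClosedImmersion (X.fromSpecResidueField x) :=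
    isClosed_singleton_iff_isClosedImmersion.1 hx
  let φ : CommRingCat.of R ⟶ X.residueField x := Spec.preimage (X.fromSpecResidueField x ≫ f)
  have hφ : Spec.map φ = X.fromSpecResidueField x ≫ f := Spec.map_preimage _
  have h2 : LocallyOfFiniteType (Spec.map φ) := by
    rw [hφ]
    infer_instance
  have h3 : φ.hom.FiniteType := by
    rwa [HasRingHomProperty.Spec_iff (P := @LocallyOfFiniteType)] at h2
  have h4 : ∀ r ∈ maximalIdeal R, φ.hom r = 0 := by
    intro r hr
    let c : Spec (X.residueField x) := closedPoint (X.residueField x)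
    have h5 : (Spec.map φ) c = closedPoint R := by
      rw [hφ, Scheme.Hom.comp_apply, Scheme.fromSpecResidueField_apply, hfx]
    have h6 : r ∈ ((Spec.map φ) c).asIdeal := by
      rw [h5]
      exact hr
    have h7 : φ.hom r ∈ maximalIdeal (X.residueField x) := h6
    by_contra hne
    exact (mem_maximalIdeal _).1 h7 (isUnit_iff_ne_zero.2 hne)
  let ψ : ResidueField R →+* X.residueField x := Ideal.Quotient.lift (maximalIdeal R) φ.hom h4
  have h8 : ψ.comp (residue R) = φ.hom := by
    ext r
    rfl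
  have h9 : ψ.FiniteType := by
    apply RingHom.FiniteType.of_comp_finiteType (f := residue R)
    rw [h8]
    exact h3
  let _ := ψ.toAlgebra
  have : Algebra.FiniteType (ResidueField R) (X.residueField x) := h9
  have : Module.Finite (ResidueField R) (X.residueField x) :=
    finite_of_finite_type_of_isJacobsonRing (ResidueField R) (X.residueField x)
  exact Algebra.IsAlgebraic.isSepClosed (F := ResidueField R)

/-- A complex on a Jacobson scheme with acyclic stalks away from a non-closed point is acyclic. -/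
theorem acyclic_of_nonclosed [JacobsonSpace X] (K : CochainComplex (Ab X) ℤ) (x₀ : X)
    (hx₀ : ¬ IsClosed ({x₀} : Set X))
    (hst : ∀ (Ω : Type u) [Field Ω] [IsSepClosed Ω] (ξ : Spec (CommRingCat.of Ω) ⟶ X),
      ξ default ≠ x₀ → (((stalk ξ).mapHomologicalComplex (ComplexShape.up ℤ)).obj K).Acyclic) :
    K.Acyclic := by
  intro m
  rw [HomologicalComplex.exactAt_iff_isZero_homology]
  refine GeomPt.isZero_of_veryDense GeomPt.veryDense_closedPoints _ fun x hx => ?_
  obtain ⟨Ω, _, _, ξ, hξ⟩ := Etcore.Stalks.exists_geom x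
  rw [← hξ, ← GeomPt.isZero_stalk_iff ξ]
  refine (isZero_map_homology_iff (stalk ξ) K m).2 (hst Ω ξ ?_ m)
  rintro h
  apply hx₀
  rw [← h, hξ]
  exact hx

section fibre

variable {k : Type u} [Field k] [IsSepClosed k] (g : X ⟶ Spec (CommRingCat.of k)) [LocallyOfFiniteType g]
  (K : CochainComplex (Ab X) ℤ) (a : ℤ) [K.IsStrictlyGE a]
  (hKa : ∀ m (q : ℕ), 0 < q → Subsingleton (EtCoh.H X (K.X m) q))
  {Ω : Type u} [Field Ω] [IsSepClosed Ω] (ξ : Spec (CommRingCat.of Ω) ⟶ X)
  (hst : ∀ (Ω' : Type u) [Field Ω'] [IsSepClosed Ω'] (ζ : Spec (CommRingCat.of Ω') ⟶ X),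
    ζ default ≠ ξ default → (((stalk ζ).mapHomologicalComplex (ComplexShape.up ℤ)).obj K).Acyclic)

include g hKa hst a in
theorem qi_fibre : Qi ξ K := by
  have hk : IsSepClosed (ResidueField k) := Etrest.SHPoint.isSepClosed_residueField k
  by_cases hx : IsClosed ({ξ default} : Set X)
  · have hi : IsClosedImmersion (X.fromSpecResidueField (ξ default)) :=
      isClosed_singleton_iff_isClosedImmersion.1 hx
    have hs : IsSepClosed (X.residueField (ξ default)) :=
      isSepClosed_residueField g (ξ default) hx (Subsingleton.elim (α := Spec (CommRingCat.of k)) _ _)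
    let κ : Type u := X.residueField (ξ default)
    let i : Spec (CommRingCat.of κ) ⟶ X := X.fromSpecResidueField (ξ default)
    have hi' : IsClosedImmersion i := hi
    have hr : Set.range i = {ξ default} := Scheme.range_fromSpecResidueField _
    obtain ⟨q, hq⟩ := Etcore.OpenClosed.exists_lift_closedImmersion i ξ (by rw [hr]; rfl)
    have hκ : IsSepClosed κ := hs
    have h1 : Qi i K := qi_closed i K a hKa
      (fun m q hq => Etrest.SHPoint.subsingleton_H_of_sepClosed κ _ q hq)
      (fun Ω' _ _ ζ hζ => hst Ω' ζ (by rw [hr] at hζ; exact hζ))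
    rw [qi_comp_iff q i ξ hq K h1]
    have hκ' : IsSepClosed (ResidueField κ) := Etrest.SHPoint.isSepClosed_residueField κ
    exact qi_of_UB q (StrictLocStar.UB_closed q (Subsingleton.elim (α := Spec (CommRingCat.of κ)) _ _)) _
  · have hJ : JacobsonSpace X := LocallyOfFiniteType.jacobsonSpace g
    have h1 : K.Acyclic := acyclic_of_nonclosed K (ξ default) hx (fun Ω' _ _ ζ hζ => hst Ω' ζ hζ)
    refine quasiIso_of_acyclic _ (acyclic_G K a h1 hKa) ?_
    have h2 : (((pull ξ).mapHomologicalComplex (ComplexShape.up ℤ)).obj K).Acyclic := by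
      have := S0101.result ξ
      exact acyclic_map_of_exact (pull ξ) h1
    have h3 : CochainComplex.IsStrictlyGE
      (((pull ξ).mapHomologicalComplex (ComplexShape.up ℤ)).obj K) a := inferInstance
    exact acyclic_G (((pull ξ).mapHomologicalComplex (ComplexShape.up ℤ)).obj K) a h2
      (fun m q hq => Etrest.SHPoint.subsingleton_H_of_sepClosed Ω _ q hq)

end fibre

section proper

variable {A : Type u} [CommRing A] [HenselianLocalRing A] [IsSepClosed (ResidueField A)]
  (f : X ⟶ Spec (CommRingCat.of A)) [IsProper f] {n : ℕ} (hn : 0 < n)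
  (K : CochainComplex (Ab X) ℤ) (a : ℤ) [K.IsStrictlyGE a]
  (hKn : ∀ m, EtCoh.KilledBy n (K.X m))
  (hKa : ∀ m (q : ℕ), 0 < q → Subsingleton (EtCoh.H X (K.X m) q))
  {Ω : Type u} [Field Ω] [IsSepClosed Ω] (ξ : Spec (CommRingCat.of Ω) ⟶ X)
  (hξ : f (ξ default) = closedPoint A)
  (hst : ∀ (Ω' : Type u) [Field Ω'] [IsSepClosed Ω'] (ζ : Spec (CommRingCat.of Ω') ⟶ X),
    f (ζ default) = closedPoint A → ζ default ≠ ξ default →
      (((stalk ζ).mapHomologicalComplex (ComplexShape.up ℤ)).obj K).Acyclic)

include hn hKn hKa hξ hst a in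
theorem qi_point : Qi ξ K := by
  have hs : IsSepClosed (ResidueField A) := inferInstance
  let φ : A →+* ResidueField A := residue A
  let p : Spec (CommRingCat.of (ResidueField A)) ⟶ Spec (CommRingCat.of A) :=
    Spec.map (CommRingCat.ofHom φ)
  have hφ : RingHom.ker φ = maximalIdeal A := Ideal.mk_ker
  have hp : IsClosedImmersion p := IsClosedImmersion.spec_of_surjective _ residue_surjective
  have hp0 : p default = closedPoint A := by
    change PrimeSpectrum.comap φ _ = _
    exact PrimeSpectrum.comap_residue A _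
  let σ := pullback.fst f p
  have hσ : IsClosedImmersion σ := inferInstance
  have hsq : IsPullback σ (pullback.snd f p) f p := IsPullback.of_hasPullback f p
  obtain ⟨ξs, hξs⟩ := Etcore.OpenClosed.exists_lift_closedImmersion σ ξ (by
    obtain ⟨y, hy1, hy2⟩ := Scheme.Pullback.exists_preimage_pullback (f := f) (g := p) (ξ default) default
      (by rw [hξ, hp0])
    exact ⟨y, hy1⟩)
  have hUB : UB σ := ClosedFibreUB.closedUB φ hφ f hsq
  have h1 : Qi σ K := qi_of_UB σ hUB K
  rw [qi_comp_iff ξs σ ξ hξs K h1]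
  have hge : CochainComplex.IsStrictlyGE
    (((pull σ).mapHomologicalComplex (ComplexShape.up ℤ)).obj K) a := inferInstance
  refine qi_fibre (pullback.snd f p) _ a ?_ ξs ?_
  · intro m q hq
    have hlim := S0101.result σ
    have h2 := HpullTors.bijective_Hpull_fibre φ hφ f (K.X m)
      (Etrest.ConstBasic.isTorsion_of_killedBy hn (hKn m)) q
    have h3 := hKa m q hq
    exact h2.2.subsingleton
  · intro Ω' _ _ ζ hζ
    refine acyclic_map_congr (Etbase.StalkPull.stalkPullIso σ ζ) (hst Ω' (ζ ≫ σ) ?_ ?_)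
    · have h2 : f ((ζ ≫ σ) default) = p ((pullback.snd f p) (ζ default)) := by
        rw [← Scheme.Hom.comp_apply, ← Scheme.Hom.comp_apply, Category.assoc, hsq.w,
          Scheme.Hom.comp_apply]
      rw [h2, ← hp0]
      congr 1
      exact Subsingleton.elim (α := Spec (CommRingCat.of (ResidueField A))) _ _
    · intro h2
      apply hζ
      apply σ.isClosedEmbedding.injective
      rw [← Scheme.Hom.comp_apply, ← Scheme.Hom.comp_apply, h2, hξs]

theorem qi_of_comp {X Y Z : Scheme.{u}} (f : X ⟶ Y) (g : Y ⟶ Z) (h : X ⟶ Z) (w : f ≫ g = h)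
    (K : CochainComplex (Ab Z) ℤ)
    (hf : Qi f (((pull g).mapHomologicalComplex (ComplexShape.up ℤ)).obj K)) (hh : Qi h K) :
    Qi g K := by
  unfold Qi at *
  rw [← psN_comp_complex f g h w K] at hh
  have h2 : QuasiIso ((NatTrans.mapHomologicalComplex (psN f) (ComplexShape.up ℤ)).app
        (((pull g).mapHomologicalComplex (ComplexShape.up ℤ)).obj K) ≫ (thC f g h w K).hom) :=
    (quasiIso_iff_comp_right _ _).2 hf
  exact (@quasiIso_iff_comp_right _ _ _ _ _ _ _ _ _ _ _ _ _ h2).1 hh

include hn hKn hKa hξ hst a in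
/-- **Claim A**. -/
theorem qi_toBase : Qi (StrictLoc.toBase ξ) K :=
  qi_of_comp (StrictLoc.pt ξ) (StrictLoc.toBase ξ) ξ (StrictLoc.pt_toBase ξ) K
    (qi_of_UB _ (StrictLocStar.UB_pt ξ) _) (qi_point f hn K a hKn hKa ξ hξ hst)

end proper

end Groth.Agent.Sga4h.H920.ClaimA
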