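import Groth.Agent.Sga4h.H920.ClaimA
import Groth.Agent.Sga4h.H920.Resol
import Groth.Agent.Sga4h.H919.Les3
import Groth.Agent.EtpbcA.KilledCat
import Groth.Agent.EtpbcA.LAStalk
import Groth.Agent.Etcore.StalkLimN
import Groth.Agent.Sga4h.UlaAcyc7

/-!
# The one-point nearby cycle sequence

`f : X ⟶ Spec A` proper, `A` strictly henselian, `F` killed by `n > 0`, `ε : Y ⟶ X` quasi-compact and
quasi-separated; suppose `F` is locally acyclic for `ε` (`F ≅ Rε_* ε⁻¹ F`) at the geometric points of the closed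
fibre not over `x₀` and the stalk of `F` at `x₀` is zero. For `P = Y ×_X Spec O^sh_{x₀}` there is a long exact sequence
`H^q(X, F) → H^q(Y, F) → H^q(P, F) → H^{q+1}(X, F)`.
-/

set_option autoImplicit false
set_option maxHeartbeats 400000
universe u

open CategoryTheory CategoryTheory.Limits AlgebraicGeometry Opposite IsLocalRing

namespace Groth.Agent.Sga4h.H920.OnePoint

open EtCoh Groth.Agent.EtpbcB Groth.Agent.EtpbcB.BCCalc Groth.Agent.EtpbcB.BCIso
  Groth.Agent.EtpbcB.StrictLoc Groth.Agent.EtpbcB.NKill Groth.Agent.EtpbcA.LA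
  ZExt OnePtAbs KapConst SecNat QiComp QiClosed ClaimA Resol Groth.Agent.Cohder.RDAcyc
  Groth.Agent.Etalg.LACoreB Groth.Agent.Sga4h.H919.Les3 Groth.Agent.Etrest.StrictLoc
  Groth.Agent.EtpbcA.LAQ95

variable {A : Type u} [CommRing A] [HenselianLocalRing A] [IsSepClosed (ResidueField A)]
  {X Y : Scheme.{u}} (f : X ⟶ Spec (CommRingCat.of A)) [IsProper f] {n : ℕ} (hn : 0 < n)
  (F : Ab X) (hF : EtCoh.KilledBy n F) (ε : Y ⟶ X) [QuasiCompact ε] [QuasiSeparated ε]
  {Ω : Type u} [Field Ω] [IsSepClosed Ω] (ξ : Spec (CommRingCat.of Ω) ⟶ X)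
  (hξ : f (ξ default) = closedPoint A)
  {P : Scheme.{u}} {a : P ⟶ Y} {b : P ⟶ Spec (Osh ξ)} (h : IsPullback a b ε (toBase ξ))
  (h0 : IsZero ((stalk ξ).obj F))
  (hLA : ∀ (k : Type u) [Field k] [IsSepClosed k] (ζ : Spec (CommRingCat.of k) ⟶ X),
    f (ζ default) = closedPoint A → ζ default ≠ ξ default → LAStalk ε F ζ)

theorem exactAt_transfer {C : Type*} [Category* C] [Abelian C] {K L : CochainComplex C ℤ} (j : K ⟶ L)
    [QuasiIso j] (m : ℤ) (h : K.ExactAt m) : L.ExactAt m :=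
  (exactAt_iff_of_quasiIsoAt j m).1 h

/-- `H^0 E ≅ F`. -/
noncomputable def homologyZeroIso {C : Type*} [Category* C] [Abelian C] (F : C) (E : CochainComplex C ℤ)
    (a : (HomologicalComplex.single C (ComplexShape.up ℤ) 0).obj F ⟶ E) [QuasiIso a] : E.homology 0 ≅ F :=
  (isoOfQuasiIsoAt a 0).symm ≪≫ HomologicalComplex.singleObjHomologySelfIso (ComplexShape.up ℤ) 0 F

/-- The dictionary at geometric points. -/
theorem laStalk_iff (ε : Y ⟶ X) (hn : 0 < n) (F : Ab X) (E : CochainComplex (Ab X) ℤ) [E.IsStrictlyGE 0]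
    (a : (HomologicalComplex.single (Ab X) (ComplexShape.up ℤ) 0).obj F ⟶ E) [QuasiIso a]
    (I : CochainComplex (Ab Y) ℤ) [I.IsStrictlyGE 0]
    (j : mc (pull ε) E ⟶ I) [QuasiIso j] (hI : ∀ m, Killed n (I.X m) ∧ NInj n (I.X m))
    (k : Type u) [Field k] [IsSepClosed k] (ζ : Spec (CommRingCat.of k) ⟶ X) :
    LAStalk ε F ζ ↔ (((stalk ζ).mapHomologicalComplex (ComplexShape.up ℤ)).obj
      (CochainComplex.mappingCone (unitC (pullPushAdj ε) E ≫
        ((push ε).mapHomologicalComplex (ComplexShape.up ℤ)).map j))).Acyclic := by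
  have hlim := S0101.result ε
  have h1 := EtpbcA.LAQ95.quasiIso_stalk_iff (pullPushAdj ε) (stalk ζ) F E a I j
    (fun m => NKillEt.acyclic_push_of_nInj ε hn ((NKillEt.killedBy_iff n _).2 (hI m).1) (hI m).2)
  have h2 : LAStalk ε F ζ ↔ IsIso ((stalk ζ).map ((pullPushAdj ε).unit.app F)) ∧
      ∀ q : ℕ, 0 < q → IsZero ((stalk ζ).obj (((push ε).rightDerived q).obj
        ((pull ε).obj F))) := by
    rw [ConcreteCategory.isIso_iff_bijective]
    rfl
  rw [h2, ← h1, ← Cohder.CoconeSES.acyclic_mappingCone_iff]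
  have e := CochainComplex.mappingCone.mapHomologicalComplexIso (unitC (pullPushAdj ε) E ≫
        ((push ε).mapHomologicalComplex (ComplexShape.up ℤ)).map j) (stalk ζ)
  exact ⟨fun h => acyclic_of_iso e.symm h, fun h => acyclic_of_iso e h⟩

/-- `Γ(Spec O^sh, E)` is acyclic if the stalk of `E` is. -/
theorem acyclic_sh (E : CochainComplex (Ab X) ℤ) [E.IsStrictlyGE 0]
    (hE : (((pull ξ).mapHomologicalComplex (ComplexShape.up ℤ)).obj E).Acyclic) :
    (mc (pull (toBase ξ) ⋙ G (Spec (Osh ξ))) E).Acyclic := by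
  have h1 : CochainComplex.IsStrictlyGE (((pull ξ).mapHomologicalComplex (ComplexShape.up ℤ)).obj E) 0 :=
    inferInstance
  have h2 : (((G (Spec (CommRingCat.of Ω))).mapHomologicalComplex (ComplexShape.up ℤ)).obj
      (((pull ξ).mapHomologicalComplex (ComplexShape.up ℤ)).obj E)).Acyclic :=
    acyclic_G _ 0 hE (fun m q hq => Etrest.SHPoint.subsingleton_H_of_sepClosed Ω _ q hq)
  let E' := ((pull (toBase ξ)).mapHomologicalComplex (ComplexShape.up ℤ)).obj E
  let ψ := (NatTrans.mapHomologicalComplex (psN (pt ξ)) (ComplexShape.up ℤ)).app E'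
  have h3 : ∀ m, IsIso (ψ.f m) := fun m => isIso_psN (pt ξ) (E'.X m) (StrictLocStar.UB_pt ξ _)
  have h4 : IsIso ψ := HomologicalComplex.Hom.isIso_of_components ψ
  exact acyclic_of_iso ((asIso ψ) ≪≫ thC (pt ξ) (toBase ξ) ξ (pt_toBase ξ) E).symm h2

theorem acyclic_pull_point (E : CochainComplex (Ab X) ℤ)
    (a : (HomologicalComplex.single (Ab X) (ComplexShape.up ℤ) 0).obj F ⟶ E) [QuasiIso a]
    (h0 : IsZero ((stalk ξ).obj F)) :
    (((pull ξ).mapHomologicalComplex (ComplexShape.up ℤ)).obj E).Acyclic := by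
  refine acyclic_of_stalks _ fun x => ?_
  obtain ⟨k, _, _, ζ, hζ⟩ := Etcore.Stalks.exists_geom x
  refine ⟨k, inferInstance, inferInstance, ζ, hζ, ?_⟩
  refine acyclic_map_congr (Etbase.StalkPull.stalkPullIso ξ ζ) fun m => ?_
  rw [← isZero_map_homology_iff (stalk (ζ ≫ ξ)) E m]
  by_cases hm : m = 0
  · subst hm
    have e : E.homology 0 ≅ F := homologyZeroIso F E a
    have h1 : IsZero ((stalk (ζ ≫ ξ)).obj F) := GeomPt.isZero_stalk_of_eq ξ (ζ ≫ ξ) F (by
      rw [Scheme.Hom.comp_apply]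
      congr 1
      exact Subsingleton.elim (α := Spec (CommRingCat.of Ω)) _ _) h0
    exact h1.of_iso ((stalk (ζ ≫ ξ)).mapIso e)
  · exact (stalk (ζ ≫ ξ)).map_isZero (exactAt_ne F E a m hm).isZero_homology

include f hn hF hξ h h0 hLA in
theorem exists_les : ∃ δ : ∀ q : ℕ, H P ((pull a).obj ((pull ε).obj F)) q →+ H X F (q + 1),
      (∀ (q : ℕ) (y : H Y ((pull ε).obj F) q), EtCore.Hpull a ((pull ε).obj F) q y = 0 ↔
        ∃ x : H X F q, EtCore.Hpull ε F q x = y) ∧
      (∀ (q : ℕ) (y : H P ((pull a).obj ((pull ε).obj F)) q), δ q y = 0 ↔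
        ∃ x : H Y ((pull ε).obj F) q, EtCore.Hpull a ((pull ε).obj F) q x = y) ∧
      (∀ (q : ℕ) (y : H X F (q + 1)), EtCore.Hpull ε F (q + 1) y = 0 ↔ ∃ x, δ q x = y) ∧
      Function.Injective (EtCore.Hpull ε F 0) := by
  have l1 := S0101.result ε
  have l2 := S0101.result a
  have hK0 : ∀ m, Killed n (((HomologicalComplex.single (Ab X) (ComplexShape.up ℤ) 0).obj F).X m) := by
    intro m
    by_cases hm : m = 0
    · subst hm
      exact killed_of_mono (HomologicalComplex.singleObjXSelf (ComplexShape.up ℤ) 0 F).hom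
        ((NKillEt.killedBy_iff n F).1 hF)
    · exact (HomologicalComplex.isZero_single_obj_X (ComplexShape.up ℤ) 0 F m hm).eq_of_src _ _
  obtain ⟨E, α, hα, hE0, hE⟩ := EtpbcA.KilledCat.exists_resolution (n := n)
    ((HomologicalComplex.single (Ab X) (ComplexShape.up ℤ) 0).obj F) 0 hK0
  have hεE : CochainComplex.IsStrictlyGE
    (((pull ε).mapHomologicalComplex (ComplexShape.up ℤ)).obj E) 0 := inferInstance
  obtain ⟨I, j, hj, hI0, hI⟩ := EtpbcA.KilledCat.exists_resolution (n := n)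
    (((pull ε).mapHomologicalComplex (ComplexShape.up ℤ)).obj E) 0
      (fun m => killed_map (pull ε) (hE m).1)
  let Φ := unitC (pullPushAdj ε) E ≫ ((push ε).mapHomologicalComplex (ComplexShape.up ℤ)).map j
  let K := CochainComplex.mappingCone Φ
  have hI0' : CochainComplex.IsStrictlyGE
    (((push ε).mapHomologicalComplex (ComplexShape.up ℤ)).obj I) 0 := inferInstance
  have hKge : K.IsStrictlyGE (-1) := CochainComplex.isStrictlyGE_mappingCone Φ 0 0 (-1) (by lia) (by lia)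
  have hKX : ∀ m, K.X m ≅ E.X (m + 1) ⊞ (push ε).obj (I.X m) := fun m =>
    HomologicalComplex.homotopyCofiber.XIsoBiprod Φ m (m + 1) rfl
  have hKn : ∀ m, EtCoh.KilledBy n (K.X m) := fun m => (NKillEt.killedBy_iff n _).2
    (killed_of_mono (hKX m).hom (killed_biprod (hE _).1 (killed_map (push ε) (hI m).1)))
  have hKi : ∀ m, NInj n (K.X m) := fun m => nInj_of_iso (hKX m).symm
    (nInj_biprod (hE _).2 (NKillEt.nInj_push ε (hI m).2))
  have hcone : Qi (toBase ξ) K := qi_toBase f hn K (-1) hKn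
    (fun m q hq => NKillH.H_of_nInj hn (hKn m) (hKi m) q hq) ξ hξ
    (fun k _ _ ζ h1 h2 => (laStalk_iff ε hn F E α I j hI k ζ).1 (hLA k ζ h1 h2))
  have hrho : ∀ N : Ab Y, BijAt (baseChange0 ε (toBase ξ) b a h.w N) (top _) := fun N =>
    StrictLocStar.bijAt_top ξ ε h N
  obtain ⟨δ, h1, h2, h3, h4⟩ := OnePtAbs.main (P := const X ℤ) (Q := const Y ℤ) (P' := const P ℤ)
    (pull ε) (push ε) (pullPushAdj ε) (pull a)
    (EtCore.pullConst ε ℤ).inv (EtCore.pullConst a ℤ).inv (pull (toBase ξ) ⋙ G (Spec (Osh ξ)))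
    (psN (toBase ξ)) (rho h.w hrho) (fun N g => rho_psN h.w hrho N g)
    E (fun m => exactAt_succ F E α m)
    (fun k m hm => NKillH.H_of_nInj hn ((NKillEt.killedBy_iff n _).2 (hE _).1) (hE _).2 m hm)
    I (fun m => @exactAt_transfer _ _ _ _ _ j hj _
      (exactAt_mc (pull ε) E _ (exactAt_succ F E α m)))
    (fun k m hm => NKillH.H_of_nInj hn ((NKillEt.killedBy_iff n _).2 (hI _).1) (hI _).2 m hm)
    (fun k m hm => by
      obtain ⟨e⟩ := Etcore.StalkLimN.nonempty_stalk_Rpush_iso ε ξ h (I.X (k : ℤ)) m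
      have hz : IsZero ((stalk ξ).obj ((Rpush ε m).obj (I.X (k : ℤ)))) :=
        (stalk ξ).map_isZero (NKillEt.isZero_Rpush_of_nInj ε hn
          ((NKillEt.killedBy_iff n _).2 (hI _).1) (hI _).2 m hm)
      exact AddCommGrpCat.subsingleton_of_isZero (hz.of_iso e.symm))
    j (isIso_cyclesMap j) hcone
    (acyclic_sh ξ E (acyclic_pull_point F ξ E α h0)) F (isoCycles F E α)
  exact ⟨δ, h1, h2, h3, h4⟩

include f hn hF hξ h h0 hLA in
theorem nonempty_les : Nonempty (Les (fun q => H X F q) (fun q => H Y ((pull ε).obj F) q)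
    (fun q => H P ((pull a).obj ((pull ε).obj F)) q)) := by
  obtain ⟨δ, h1, h2, h3, h4⟩ := exists_les f hn F hF ε ξ hξ h h0 hLA
  exact ⟨⟨fun q => EtCore.Hpull ε F q, fun q => EtCore.Hpull a ((pull ε).obj F) q, δ, h1, h2, h3, h4⟩⟩

end Groth.Agent.Sga4h.H920.OnePoint
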