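import Groth.Agent.Sga4h.H920.QiComp
import Groth.Agent.EtpbcA.SuppClosed
import Groth.Agent.Etcore.OpenClosed
import Groth.Agent.Etalg.LACoreB3
import Groth.Agent.S0069

/-!
# Restriction of sections of a complex to a closed subscheme

* `quasiIso_of_stalks`: quasi-isomorphisms of complexes of étale sheaves are detected on stalks;
* `qi_closed`: if `K` is bounded below, its terms and their restrictions to the closed subscheme `Z` have no higher
  cohomology, and the stalks of `K` outside `Z` are acyclic, then `Γ(X, K) ⟶ Γ(Z, K|_Z)` is a quasi-isomorphism.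
-/

set_option autoImplicit false
set_option maxHeartbeats 400000
universe u

open CategoryTheory CategoryTheory.Limits AlgebraicGeometry Opposite

namespace Groth.Agent.Sga4h.H920.QiClosed

open EtCoh Groth.Agent.EtpbcB Groth.Agent.EtpbcB.BCCalc Groth.Agent.EtpbcB.BCIso
  ZExt OnePtAbs KapConst SecNat QiComp Groth.Agent.Cohder.RDAcyc Groth.Agent.Etalg.LACoreB

variable {X Y Z : Scheme.{u}}

theorem acyclic_of_stalks (K : CochainComplex (Ab X) ℤ)
    (h : ∀ x : X, ∃ (Ω : Type u) (_ : Field Ω) (_ : IsSepClosed Ω)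
      (ξ : Spec (CommRingCat.of Ω) ⟶ X), ξ default = x ∧
        (((stalk ξ).mapHomologicalComplex (ComplexShape.up ℤ)).obj K).Acyclic) : K.Acyclic := by
  intro m
  rw [HomologicalComplex.exactAt_iff_isZero_homology]
  refine Etcore.Stalks.isZero_of_stalks _ fun x => ?_
  obtain ⟨Ω, _, _, ξ, hξ, hK⟩ := h x
  exact ⟨Ω, inferInstance, inferInstance, ξ, hξ, (isZero_map_homology_iff (stalk ξ) K m).2 (hK m)⟩

theorem quasiIso_of_stalks {K L : CochainComplex (Ab X) ℤ} (u : K ⟶ L)
    (h : ∀ x : X, ∃ (Ω : Type u) (_ : Field Ω) (_ : IsSepClosed Ω)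
      (ξ : Spec (CommRingCat.of Ω) ⟶ X), ξ default = x ∧
        QuasiIso (((stalk ξ).mapHomologicalComplex (ComplexShape.up ℤ)).map u)) : QuasiIso u := by
  rw [← Cohder.CoconeSES.acyclic_mappingCone_iff]
  refine acyclic_of_stalks _ fun x => ?_
  obtain ⟨Ω, _, _, ξ, hξ, hu⟩ := h x
  refine ⟨Ω, inferInstance, inferInstance, ξ, hξ, ?_⟩
  have h1 := (Cohder.CoconeSES.acyclic_mappingCone_iff _).2 hu
  exact acyclic_of_iso (CochainComplex.mappingCone.mapHomologicalComplexIso u (stalk ξ)).symm h1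

theorem quasiIso_of_acyclic {C : Type*} [Category* C] [Abelian C] {K L : CochainComplex C ℤ}
    (u : K ⟶ L) (hK : K.Acyclic) (hL : L.Acyclic) : QuasiIso u := by
  refine ⟨fun m => ?_⟩
  rw [quasiIsoAt_iff_isIso_homologyMap]
  have h1 := (HomologicalComplex.exactAt_iff_isZero_homology _ _).1 (hK m)
  have h2 := (HomologicalComplex.exactAt_iff_isZero_homology _ _).1 (hL m)
  exact h1.isIso h2 _

theorem isZero_stalk_push_of_notMem (i : Z ⟶ X) [IsClosedImmersion i] {Ω : Type u} [Field Ω] [IsSepClosed Ω]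
    (ξ : Spec (CommRingCat.of Ω) ⟶ X) (h : ξ default ∉ Set.range i) (N : Ab Z) :
    IsZero ((stalk ξ).obj ((push i).obj N)) := by
  refine S0069.result i _ ξ ?_
  rw [Set.disjoint_left]
  rintro _ ⟨a, rfl⟩ hb
  have : a = default := Subsingleton.elim _ _
  subst this
  exact h hb

theorem quasiIso_unit (i : Z ⟶ X) [IsClosedImmersion i] (K : CochainComplex (Ab X) ℤ)
    (hst : ∀ (Ω : Type u) [Field Ω] [IsSepClosed Ω] (ξ : Spec (CommRingCat.of Ω) ⟶ X),
      ξ default ∉ Set.range i → (((stalk ξ).mapHomologicalComplex (ComplexShape.up ℤ)).obj K).Acyclic) :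
    QuasiIso (unitC (pullPushAdj i) K) := by
  refine quasiIso_of_stalks _ fun x => ?_
  obtain ⟨Ω, _, _, ξ, hξ⟩ := Etcore.Stalks.exists_geom x
  refine ⟨Ω, inferInstance, inferInstance, ξ, hξ, ?_⟩
  by_cases hx : ξ default ∈ Set.range i
  · have h1 : ∀ m, IsIso ((((stalk ξ).mapHomologicalComplex (ComplexShape.up ℤ)).map
        (unitC (pullPushAdj i) K)).f m) := fun m =>
      Etcore.OpenClosed.isIso_stalk_unit i ξ hx (K.X m)
    have h2 := HomologicalComplex.Hom.isIso_of_components
      (((stalk ξ).mapHomologicalComplex (ComplexShape.up ℤ)).map (unitC (pullPushAdj i) K))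
    infer_instance
  · refine quasiIso_of_acyclic _ (hst Ω ξ hx) fun m => ?_
    rw [HomologicalComplex.exactAt_iff_isZero_homology]
    exact ShortComplex.isZero_homology_of_isZero_X₂ _ (isZero_stalk_push_of_notMem i ξ hx _)

theorem qi_closed (i : Z ⟶ X) [IsClosedImmersion i] (K : CochainComplex (Ab X) ℤ) (a : ℤ)
    [K.IsStrictlyGE a]
    (hK : ∀ m (q : ℕ), 0 < q → Subsingleton (EtCoh.H X (K.X m) q))
    (hZ : ∀ m (q : ℕ), 0 < q → Subsingleton (EtCoh.H Z ((pull i).obj (K.X m)) q))
    (hst : ∀ (Ω : Type u) [Field Ω] [IsSepClosed Ω] (ξ : Spec (CommRingCat.of Ω) ⟶ X),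
      ξ default ∉ Set.range i → (((stalk ξ).mapHomologicalComplex (ComplexShape.up ℤ)).obj K).Acyclic) :
    Qi i K := by
  have h1 : QuasiIso (unitC (pullPushAdj i) K) := quasiIso_unit i K hst
  have h2 : QuasiIso (((G X).mapHomologicalComplex (ComplexShape.up ℤ)).map
      (unitC (pullPushAdj i) K)) := by
    have hge : CochainComplex.IsStrictlyGE (((push i).mapHomologicalComplex (ComplexShape.up ℤ)).obj
      (((pull i).mapHomologicalComplex (ComplexShape.up ℤ)).obj K)) a := inferInstance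
    exact Cohder.RDPlusAcyc.quasiIso_map (G X) (unitC (pullPushAdj i) K) a a
      (fun m => isAcyc_G _ (hK m))
      (fun m => isAcyc_G _ fun q hq => EtpbcA.SuppClosed.H_push_subsingleton i _ q hq (hZ m q hq))
  unfold Qi
  let e : ((G X).mapHomologicalComplex (ComplexShape.up ℤ)).obj
      (((push i).mapHomologicalComplex (ComplexShape.up ℤ)).obj
        (((pull i).mapHomologicalComplex (ComplexShape.up ℤ)).obj K)) ≅
      ((pull i ⋙ G Z).mapHomologicalComplex (ComplexShape.up ℤ)).obj K :=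
    (NatIso.mapHomologicalComplex (paI i) (ComplexShape.up ℤ)).app
      (((pull i).mapHomologicalComplex (ComplexShape.up ℤ)).obj K)
  have h3 : (NatTrans.mapHomologicalComplex (psN i) (ComplexShape.up ℤ)).app K =
      ((G X).mapHomologicalComplex (ComplexShape.up ℤ)).map (unitC (pullPushAdj i) K) ≫ e.hom := by
    ext m : 1
    exact psN_eq i (K.X m)
  rw [h3]
  infer_instance

end Groth.Agent.Sga4h.H920.QiClosed
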